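import Cfsg.Agent.Lib.Helper96.SylAltStmt

/-!
# S2221: small proved utilities for the pieces
-/

set_option autoImplicit false
set_option linter.unusedSectionVars false

namespace Cfsg.Agent.Lib.Helper96.SylAltBasic

open Equiv Cfsg.Agent.Lib.Lead.SylTwoSym Cfsg.Agent.Lib.Helper96.SylAltStmt

section idp

variable {G : Type*} [Group G] {A B Q : Subgroup G}

/-- every element of an internal direct product is a product -/
theorem idp_mul (h : Cfsg.IsInternalDirectProduct A B Q) {q : G} (hq : q ∈ Q) :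
    ∃ a ∈ A, ∃ b ∈ B, q = a * b := by
  obtain ⟨hA, hB, hc, -, hsup⟩ := h
  let C : Subgroup G :=
    { carrier := {x | ∃ a ∈ A, ∃ b ∈ B, x = a * b}
      one_mem' := ⟨1, A.one_mem, 1, B.one_mem, by simp⟩
      mul_mem' := by
        rintro _ _ ⟨a, ha, b, hb, rfl⟩ ⟨a', ha', b', hb', rfl⟩
        refine ⟨a * a', A.mul_mem ha ha', b * b', B.mul_mem hb hb', ?_⟩
        calc a * b * (a' * b') = a * (b * a') * b' := by group
          _ = a * (a' * b) * b' := by rw [hc a' ha' b hb]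
          _ = a * a' * (b * b') := by group
      inv_mem' := by
        rintro _ ⟨a, ha, b, hb, rfl⟩
        refine ⟨a⁻¹, A.inv_mem ha, b⁻¹, B.inv_mem hb, ?_⟩
        have := hc a⁻¹ (A.inv_mem ha) b⁻¹ (B.inv_mem hb)
        rw [mul_inv_rev]
        exact this.symm }
  have hle : A ⊔ B ≤ C :=
    sup_le (fun a ha => ⟨a, ha, 1, B.one_mem, by simp⟩) (fun b hb => ⟨1, A.one_mem, b, hb, by simp⟩)
  rw [← hsup] at hq
  exact hle hq

/-- the first factor is normalized by the product -/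
theorem idp_normal_left (h : Cfsg.IsInternalDirectProduct A B Q) {q x : G} (hq : q ∈ Q)
    (hx : x ∈ A) : q * x * q⁻¹ ∈ A := by
  obtain ⟨a, ha, b, hb, rfl⟩ := idp_mul h hq
  have hbx : b * x * b⁻¹ = x := by
    rw [← h.2.2.1 x hx b hb]
    group
  have e : a * b * x * (a * b)⁻¹ = a * (b * x * b⁻¹) * a⁻¹ := by group
  rw [e, hbx]
  exact A.mul_mem (A.mul_mem ha hx) (A.inv_mem ha)

/-- the second factor is normalized by the product -/
theorem idp_normal_right (h : Cfsg.IsInternalDirectProduct A B Q) {q y : G} (hq : q ∈ Q)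
    (hy : y ∈ B) : q * y * q⁻¹ ∈ B := by
  obtain ⟨a, ha, b, hb, rfl⟩ := idp_mul h hq
  have hby : b * y * b⁻¹ ∈ B := B.mul_mem (B.mul_mem hb hy) (B.inv_mem hb)
  have hc := h.2.2.1 a ha _ hby
  have e : a * b * y * (a * b)⁻¹ = a * (b * y * b⁻¹) * a⁻¹ := by group
  rw [e, hc]
  simpa using hby

end idp

section perm

variable {Ω : Type} [DecidableEq Ω] [Fintype Ω]

theorem mem_ev {S : Subgroup (Perm Ω)} {x : Perm Ω} : x ∈ ev S ↔ x ∈ S ∧ Perm.sign x = 1 := by
  simp [ev, Subgroup.mem_inf, Equiv.Perm.mem_alternatingGroup]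

theorem sign_of_mem_swapsIn {S : Subgroup (Perm Ω)} {τ : Perm Ω} (h : τ ∈ swapsIn S) :
    Perm.sign τ = -1 := Equiv.Perm.IsSwap.sign_eq h.2

theorem mem_of_mem_swapsIn {S : Subgroup (Perm Ω)} {τ : Perm Ω} (h : τ ∈ swapsIn S) : τ ∈ S := h.1

/-- a permutation supported in `U` maps `U` to `U` -/
theorem supOn_apply_mem {x : Perm Ω} {U : Set Ω} (hx : SupOn x U) {a : Ω} (ha : a ∈ U) :
    x a ∈ U := by
  by_contra h
  have h1 := hx (x a) h
  exact h (by rwa [x.injective h1])

/-- a permutation fixing `U` pointwise maps the complement to the complement -/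
theorem fixOn_apply_not_mem {y : Perm Ω} {U : Set Ω} (hy : FixOn y U) {a : Ω} (ha : a ∉ U) :
    y a ∉ U := by
  intro h
  have h1 := hy (y a) h
  exact ha (by rwa [y.injective h1] at h)

/-- disjoint supports commute -/
theorem commute_of_supOn_fixOn {x y : Perm Ω} {U : Set Ω} (hx : SupOn x U) (hy : FixOn y U) :
    x * y = y * x := by
  ext a
  simp only [Perm.mul_apply]
  by_cases ha : a ∈ U
  · rw [hy a ha, hy _ (supOn_apply_mem hx ha)]
  · rw [hx a ha, hx _ (fixOn_apply_not_mem hy ha)]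

theorem fixOn_compl_of_supOn {x : Perm Ω} {U : Set Ω} (h : SupOn x U) : FixOn x Uᶜ :=
  fun a ha => h a ha

theorem supOn_compl_of_fixOn {x : Perm Ω} {U : Set Ω} (h : FixOn x U) : SupOn x Uᶜ :=
  fun a ha => h a (by simpa using ha)

/-- the complement of an invariant set is invariant -/
theorem inv_compl {S : Subgroup (Perm Ω)} {U : Set Ω} (hU : Inv S U) : Inv S Uᶜ := by
  intro s hs a ha h
  apply ha
  have := hU s⁻¹ (S.inv_mem hs) (s a) h
  simpa using this

/-- a transposition of `S` moving a point of an invariant set is supported in it -/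
theorem supOn_of_swap_moves {S : Subgroup (Perm Ω)} {U : Set Ω} (hU : Inv S U) {τ : Perm Ω}
    (hτ : τ ∈ swapsIn S) {a : Ω} (ha : a ∈ U) (hm : τ a ≠ a) : SupOn τ U := by
  intro b hb
  have h1 := swap_of_moves hτ.2 hm
  have h2 : τ a ∈ U := hU τ hτ.1 a ha
  rw [h1]
  exact Equiv.swap_apply_of_ne_of_ne (fun h => hb (h ▸ ha)) (fun h => hb (h ▸ h2))

/-- a transposition of `S` is supported in an invariant set or fixes it pointwise -/
theorem supOn_or_fixOn {S : Subgroup (Perm Ω)} {U : Set Ω} (hU : Inv S U) {τ : Perm Ω}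
    (hτ : τ ∈ swapsIn S) : SupOn τ U ∨ FixOn τ U := by
  by_cases h : ∃ a ∈ U, τ a ≠ a
  · obtain ⟨a, ha, hm⟩ := h
    exact Or.inl (supOn_of_swap_moves hU hτ ha hm)
  · right
    intro a ha
    by_contra hm
    exact h ⟨a, ha, hm⟩

/-- the orbit of a point is invariant -/
theorem inv_orbit (S : Subgroup (Perm Ω)) (c : Ω) : Inv S {a | ∃ s ∈ S, s c = a} := by
  rintro s hs _ ⟨t, ht, rfl⟩
  exact ⟨s * t, S.mul_mem hs ht, rfl⟩

/-- conjugates of elements of `swapsIn S` by `S` are in `swapsIn S` -/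
theorem conj_mem_swapsIn {S : Subgroup (Perm Ω)} {τ s : Perm Ω} (hτ : τ ∈ swapsIn S)
    (hs : s ∈ S) : s * τ * s⁻¹ ∈ swapsIn S :=
  ⟨S.mul_mem (S.mul_mem hs hτ.1) (S.inv_mem hs), isSwap_conj hτ.2 s⟩

end perm

end Cfsg.Agent.Lib.Helper96.SylAltBasic
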