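import Mathlib
import Cfsg.Agent.Lib.Helper25.ACStmt

/-!
# S3912 / P2STRUCT (call by helper25)

A nonabelian 2-group with a unique involution `z` and all commutators in `{1, z}` has order 8
(from `P2Cent`).
-/

set_option autoImplicit false

namespace Cfsg.Agent.Lib.Helper96.ACP2STRUCT

open Cfsg.Agent.Lib.Helper25.ACStmt

universe u

theorem main (hC : P2Cent.{u}) : P2Struct.{u} := by
  intro P _ _ hP z hz hinv hcomm hex
  obtain ⟨x, y, hxy⟩ := hex
  classical
  obtain ⟨n, hn⟩ := IsPGroup.iff_card.mp hP
  -- z has order 2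
  have hz2 : z ^ 2 = 1 := by
    have h2 : 2 ∣ Nat.card P := by
      rcases n with _ | n
      · exfalso
        rw [pow_zero] at hn
        have := (Nat.card_eq_one_iff_unique.mp hn).1
        exact hxy (Subsingleton.elim _ _)
      · rw [hn, pow_succ]
        exact dvd_mul_left 2 _
    obtain ⟨t, ht⟩ := exists_prime_orderOf_dvd_card' 2 h2
    have ht2 : t ^ 2 = 1 := by
      rw [← ht]
      exact pow_orderOf_eq_one t
    rcases hinv t ht2 with h | h
    · rw [h, orderOf_one] at ht
      omega
    · rw [← h]
      exact ht2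
  have hzz : z * z = 1 := by
    rw [← pow_two]
    exact hz2
  -- z is central
  have hzc : ∀ g : P, g * z = z * g := by
    intro g
    have h1 : (g * z * g⁻¹) ^ 2 = 1 := by
      rw [pow_two]
      calc g * z * g⁻¹ * (g * z * g⁻¹) = g * (z * z) * g⁻¹ := by group
        _ = 1 := by rw [hzz]; group
    rcases hinv _ h1 with h | h
    · exfalso
      apply hz
      have e : z = g⁻¹ * (g * z * g⁻¹) * g := by group
      rw [e, h]
      group
    · calc g * z = (g * z * g⁻¹) * g := by group
        _ = z * g := by rw [h]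
  -- twisted commutation
  have hsw : ∀ a b : P, a * b ≠ b * a → a * b = z * b * a := by
    intro a b hab
    rcases hcomm a b with h | h
    · exfalso
      apply hab
      calc a * b = (a * b * a⁻¹ * b⁻¹) * b * a := by group
        _ = b * a := by rw [h]; group
    · calc a * b = (a * b * a⁻¹ * b⁻¹) * b * a := by group
        _ = z * b * a := by rw [h]
  have hxy' : x * y = z * y * x := hsw x y hxy
  have hyx' : y * x = z * x * y := hsw y x (fun h => hxy h.symm)
  have L : ∀ a c b : P, a * b = z * b * a → c * b = z * b * c →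
      (a * c) * b = b * (a * c) := by
    intro a c b hab hcb
    calc a * c * b = a * (c * b) := mul_assoc _ _ _
      _ = a * (z * b * c) := by rw [hcb]
      _ = (a * z) * b * c := by simp only [mul_assoc]
      _ = (z * a) * b * c := by rw [hzc a]
      _ = z * (a * b) * c := by simp only [mul_assoc]
      _ = z * (z * b * a) * c := by rw [hab]
      _ = (z * z) * (b * (a * c)) := by simp only [mul_assoc]
      _ = b * (a * c) := by rw [hzz, one_mul]
  have L0 : ∀ a c b : P, a * b = b * a → c * b = b * c → (a * c) * b = b * (a * c) := by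
    intro a c b hab hcb
    calc a * c * b = a * (c * b) := mul_assoc _ _ _
      _ = a * (b * c) := by rw [hcb]
      _ = (a * b) * c := (mul_assoc _ _ _).symm
      _ = (b * a) * c := by rw [hab]
      _ = b * (a * c) := mul_assoc _ _ _
  have hcov : ∀ g : P, g ∈ ([1, z, 1 * x⁻¹, z * x⁻¹, 1 * y⁻¹, z * y⁻¹, 1 * y⁻¹ * x⁻¹,
      z * y⁻¹ * x⁻¹] : List P) := by
    intro g
    by_cases hgx : g * x = x * g <;> by_cases hgy : g * y = y * g
    · rcases hC P hP z hz hinv hcomm x y hxy g hgx hgy with h | h <;> simp [h]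
    · have hgy' := hsw g y hgy
      have h1 : (g * x) * x = x * (g * x) := L0 g x x hgx rfl
      have h2 : (g * x) * y = y * (g * x) := L g x y hgy' hxy'
      rcases hC P hP z hz hinv hcomm x y hxy (g * x) h1 h2 with h | h
      · have e : g = 1 * x⁻¹ := eq_mul_inv_of_mul_eq h
        rw [e]
        simp
      · have e : g = z * x⁻¹ := eq_mul_inv_of_mul_eq h
        rw [e]
        simp
    · have hgx' := hsw g x hgx
      have h1 : (g * y) * x = x * (g * y) := L g y x hgx' hyx'
      have h2 : (g * y) * y = y * (g * y) := L0 g y y hgy rfl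
      rcases hC P hP z hz hinv hcomm x y hxy (g * y) h1 h2 with h | h
      · have e : g = 1 * y⁻¹ := eq_mul_inv_of_mul_eq h
        rw [e]
        simp
      · have e : g = z * y⁻¹ := eq_mul_inv_of_mul_eq h
        rw [e]
        simp
    · have hgx' := hsw g x hgx
      have hgy' := hsw g y hgy
      have h0 : (g * x) * x = z * x * (g * x) := by
        calc g * x * x = (z * x * g) * x := congrArg (· * x) hgx'
          _ = z * x * (g * x) := by simp only [mul_assoc]
      have h1 : (g * x * y) * x = x * (g * x * y) := L (g * x) y x h0 hyx'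
      have h2 : (g * x * y) * y = y * (g * x * y) := L0 (g * x) y y (L g x y hgy' hxy') rfl
      rcases hC P hP z hz hinv hcomm x y hxy (g * x * y) h1 h2 with h | h
      · have e : g = 1 * y⁻¹ * x⁻¹ := eq_mul_inv_of_mul_eq (eq_mul_inv_of_mul_eq h)
        rw [e]
        simp
      · have e : g = z * y⁻¹ * x⁻¹ := eq_mul_inv_of_mul_eq (eq_mul_inv_of_mul_eq h)
        rw [e]
        simp
  have hle : Nat.card P ≤ 8 := by
    have : Fintype P := Fintype.ofFinite P
    rw [Nat.card_eq_fintype_card]
    calc Fintype.card P = (Finset.univ : Finset P).card := Finset.card_univ.symm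
      _ ≤ (([1, z, 1 * x⁻¹, z * x⁻¹, 1 * y⁻¹, z * y⁻¹, 1 * y⁻¹ * x⁻¹,
          z * y⁻¹ * x⁻¹] : List P).toFinset).card :=
        Finset.card_le_card (fun g _ => List.mem_toFinset.mpr (hcov g))
      _ ≤ ([1, z, 1 * x⁻¹, z * x⁻¹, 1 * y⁻¹, z * y⁻¹, 1 * y⁻¹ * x⁻¹,
          z * y⁻¹ * x⁻¹] : List P).length := List.toFinset_card_le _
      _ = 8 := rfl
  have hn3 : n ≤ 3 := by
    by_contra hcon
    have h4 : 4 ≤ n := by omega
    have : 2 ^ 4 ≤ 2 ^ n := Nat.pow_le_pow_right (by norm_num) h4
    rw [hn] at hle
    omega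
  interval_cases n
  · exfalso
    rw [pow_zero] at hn
    have := (Nat.card_eq_one_iff_unique.mp hn).1
    exact hxy (Subsingleton.elim _ _)
  · exfalso
    rw [pow_one] at hn
    have : IsCyclic P := isCyclic_of_prime_card (p := 2) hn
    exact hxy (IsCyclic.isMulCommutative.is_comm.comm x y)
  · exfalso
    exact hxy ((IsPGroup.isMulCommutative_of_card_eq_prime_sq (p := 2) hn).is_comm.comm x y)
  · rw [hn]
    norm_num

end Cfsg.Agent.Lib.Helper96.ACP2STRUCT
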