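import Mathlib
import Cfsg.Agent.Lib.Helper25.ACStmt
import Cfsg.Agent.Lib.Helper25.ACOddStmt

/-!
# S3911 / ABCYC (call by helper25)

An abelian `p`-group with a unique subgroup of order `p` is cyclic (the chain argument of
`Helper65.ACCYCCHAIN`, for any prime `p`).
-/

set_option autoImplicit false

namespace Cfsg.Agent.Lib.Helper96.AOABCYC

open Cfsg.Agent.Lib.Helper25.ACStmt Cfsg.Agent.Lib.Helper25.ACOddStmt

universe u

/-- one step: `c ^ p ∈ ⟨x⟩`, `o(c) ≤ o(x)`, `c x = x c` give `c ∈ ⟨x⟩` -/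
theorem step {P : Type u} [Group P] [Finite P] (p : ℕ) [hp : Fact p.Prime] (hP : IsPGroup p P)
    (N : Subgroup P) (hN : Nat.card ↥N = p) (huniq : ∀ x : P, orderOf x = p → x ∈ N)
    (c x : P) (hcx : c * x = x * c)
    (hle : orderOf c ≤ orderOf x) (h2 : c ^ p ∈ Subgroup.zpowers x) :
    c ∈ Subgroup.zpowers x := by
  have hp1 : 1 < p := hp.out.one_lt
  by_cases hc1 : c = 1
  · rw [hc1]
    exact Subgroup.one_mem _
  have hcomm : Commute c x := hcx
  obtain ⟨j, hj⟩ := (IsPGroup.iff_orderOf.mp hP) c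
  obtain ⟨k, hk⟩ := (IsPGroup.iff_orderOf.mp hP) x
  have hj1 : 1 ≤ j := by
    rcases Nat.eq_zero_or_pos j with h | h
    · rw [h, pow_zero] at hj
      exact absurd (orderOf_eq_one_iff.mp hj) hc1
    · exact h
  have hk1 : 1 ≤ k := by
    rw [hj, hk] at hle
    have := (Nat.pow_le_pow_iff_right hp1).mp hle
    omega
  obtain ⟨m, hm⟩ : ∃ m : ℕ, x ^ m = c ^ p :=
    (Submonoid.mem_powers_iff (c ^ p) x).mp
      ((mem_powers_iff_mem_zpowers (x := x) (y := c ^ p)).mpr h2)
  have hmdvd : p ∣ m := by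
    by_contra hnd
    have h1 : orderOf (x ^ m) = orderOf x := by
      rw [orderOf_pow, hk]
      have hg : Nat.gcd (p ^ k) m = 1 :=
        Nat.Coprime.pow_left k ((Nat.Prime.coprime_iff_not_dvd hp.out).mpr hnd)
      rw [hg, Nat.div_one]
    have h2' : orderOf (c ^ p) < orderOf c := by
      rw [orderOf_pow, hj]
      have hg : Nat.gcd (p ^ j) p = p :=
        Nat.gcd_eq_right (dvd_pow_self p (by omega))
      rw [hg]
      exact Nat.div_lt_self (by positivity) hp1
    rw [hm] at h1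
    omega
  obtain ⟨m', hm'⟩ := hmdvd
  have hu : (c * (x ^ m')⁻¹) ^ p = 1 := by
    have hc' : Commute c (x ^ m')⁻¹ := (hcomm.pow_right m').inv_right
    rw [hc'.mul_pow, inv_pow, ← pow_mul, ← hm, hm', mul_comm p m']
    exact mul_inv_cancel _
  have hNx : ∀ u : P, u ^ p = 1 → u ∈ Subgroup.zpowers x := by
    intro u hu
    by_cases hu1 : u = 1
    · rw [hu1]
      exact Subgroup.one_mem _
    have hw : orderOf (x ^ p ^ (k - 1)) = p := by
      rw [orderOf_pow, hk]
      have hg : Nat.gcd (p ^ k) (p ^ (k - 1)) = p ^ (k - 1) :=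
        Nat.gcd_eq_right (pow_dvd_pow p (by omega))
      rw [hg, Nat.pow_div (by omega) hp.out.pos]
      have e : k - (k - 1) = 1 := by omega
      rw [e, pow_one]
    have hwN : x ^ p ^ (k - 1) ∈ N := huniq _ hw
    have huo : orderOf u = p := orderOf_eq_prime hu hu1
    have huN : u ∈ N := huniq _ huo
    have hzle : Subgroup.zpowers (x ^ p ^ (k - 1)) ≤ N := Subgroup.zpowers_le.mpr hwN
    have hcard : Nat.card (Subgroup.zpowers (x ^ p ^ (k - 1))) = Nat.card N := by
      rw [Nat.card_zpowers, hw, hN]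
    have heq : Subgroup.zpowers (x ^ p ^ (k - 1)) = N :=
      Subgroup.eq_of_le_of_card_ge hzle (le_of_eq hcard.symm)
    rw [← heq] at huN
    exact (Subgroup.zpowers_le.mpr (Subgroup.pow_mem _ (Subgroup.mem_zpowers x) _)) huN
  have hxm : x ^ m' ∈ Subgroup.zpowers x := Subgroup.pow_mem _ (Subgroup.mem_zpowers x) _
  have hu' := hNx _ hu
  have e : c = (c * (x ^ m')⁻¹) * x ^ m' := by group
  rw [e]
  exact Subgroup.mul_mem _ hu' hxm

theorem chain {P : Type u} [Group P] [Finite P] (p : ℕ) [hp : Fact p.Prime] (hP : IsPGroup p P)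
    (N : Subgroup P) (hN : Nat.card ↥N = p) (huniq : ∀ x : P, orderOf x = p → x ∈ N)
    (c x : P) (hcx : c * x = x * c)
    (hle : orderOf c ≤ orderOf x) : c ∈ Subgroup.zpowers x := by
  obtain ⟨j, hj⟩ := (IsPGroup.iff_orderOf.mp hP) c
  have key : ∀ n : ℕ, ∀ c : P, c * x = x * c → orderOf c ≤ orderOf x →
      c ^ (p ^ n) ∈ Subgroup.zpowers x → c ∈ Subgroup.zpowers x := by
    intro n
    induction n with
    | zero =>
      intro c _ _ h
      simpa using h
    | succ n ih =>
      intro c hc hle h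
      have h2 : c ^ p ∈ Subgroup.zpowers x := by
        apply ih (c ^ p)
        · exact ((show Commute c x from hc).pow_left p).eq
        · exact le_trans (Nat.le_of_dvd (orderOf_pos c) (orderOf_pow_dvd p)) hle
        · rw [← pow_mul, show p * p ^ n = p ^ (n + 1) by ring]
          exact h
      exact step p hP N hN huniq c x hc hle h2
  apply key j c hcx hle
  rw [← hj, pow_orderOf_eq_one]
  exact Subgroup.one_mem _

theorem main : AbCyc.{u} := by
  intro P _ _ p _ hP hcomm N hN huniq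
  obtain ⟨a, ha⟩ : ∃ a : P, ∀ b : P, orderOf b ≤ orderOf a :=
    Finite.exists_max (fun b : P => orderOf b)
  rw [isCyclic_iff_exists_zpowers_eq_top]
  refine ⟨a, ?_⟩
  rw [eq_top_iff]
  intro c _
  exact chain p hP N hN huniq c a (hcomm c a) (ha c)

end Cfsg.Agent.Lib.Helper96.AOABCYC
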