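import Mathlib
import Cfsg.Agent.Lib.Helper25.ACStmt
import Cfsg.Agent.Lib.Helper25.ACOddStmt

/-!
# S3911 / CYCODD (call by helper25)

`p` odd: a `p`-group with a unique subgroup of order `p` is cyclic (strong induction on the
order; from `AbCyc`, `CycStep`, `PAb`).
-/

set_option autoImplicit false

namespace Cfsg.Agent.Lib.Helper96.AOCYCODD

open Cfsg.Agent.Lib.Helper25.ACStmt Cfsg.Agent.Lib.Helper25.ACOddStmt

universe u

theorem main (hAb : AbCyc.{u}) (hStep : CycStep.{u}) (hP : PAb.{u}) : CycOdd.{u} := by
  have key : ∀ n : ℕ, ∀ (P : Type u) [Group P] [Finite P] (p : ℕ) [Fact p.Prime],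
      Nat.card P = n → p ≠ 2 → IsPGroup p P →
      ∀ N : Subgroup P, Nat.card ↥N = p → (∀ x : P, orderOf x = p → x ∈ N) → IsCyclic P := by
    intro n
    induction n using Nat.strong_induction_on with
    | _ n ih =>
      intro P _ _ p _ hn hp2 hPg N hN huniq
      have hprop : ∀ H : Subgroup P, H ≠ ⊤ → IsCyclic ↥H := by
        intro H hH
        by_cases hbot : H = ⊥
        · have : Subsingleton ↥H := by
            rw [hbot]
            infer_instance
          exact isCyclic_of_subsingleton
        have hlt : Nat.card ↥H < n := by
          rw [← hn]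
          exact lt_of_le_of_ne (Subgroup.card_le_card_group H)
            (fun h => hH (Subgroup.eq_top_of_card_eq H h))
        have hHp : IsPGroup p ↥H := hPg.to_subgroup H
        have hdvd : p ∣ Nat.card ↥H := by
          obtain ⟨k, hk⟩ := IsPGroup.iff_card.mp hHp
          rcases k with _ | k
          · exfalso
            rw [pow_zero] at hk
            exact hbot (Subgroup.eq_bot_of_card_eq H hk)
          · rw [hk, pow_succ]
            exact dvd_mul_left _ _
        obtain ⟨y, hy⟩ := exists_prime_orderOf_dvd_card' p hdvd
        have hyo : orderOf (y : P) = p := by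
          rw [Subgroup.orderOf_coe]
          exact hy
        have hyN : (y : P) ∈ N := huniq _ hyo
        have hNH : N ≤ H := by
          have hzle : Subgroup.zpowers (y : P) ≤ N := Subgroup.zpowers_le.mpr hyN
          have hcard : Nat.card (Subgroup.zpowers (y : P)) = Nat.card N := by
            rw [Nat.card_zpowers, hyo, hN]
          have heq := Subgroup.eq_of_le_of_card_ge hzle (le_of_eq hcard.symm)
          rw [← heq]
          exact Subgroup.zpowers_le.mpr y.2
        apply ih (Nat.card ↥H) hlt ↥H p rfl hp2 hHp (N.subgroupOf H)
        · rw [← hN]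
          exact Nat.card_congr (Subgroup.subgroupOfEquivOfLe hNH).toEquiv
        · intro x hx
          rw [Subgroup.mem_subgroupOf]
          apply huniq
          rw [Subgroup.orderOf_coe]
          exact hx
      have hcomm := hStep P p hp2 hPg N hN huniq hprop
      have hab := hP P p hp2 hPg N hN huniq hcomm
      exact hAb P p hPg hab N hN huniq
  intro P _ _ p _ hp2 hPg N hN huniq
  exact key (Nat.card P) P p rfl hp2 hPg N hN huniq

end Cfsg.Agent.Lib.Helper96.AOCYCODD
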