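-- helper96: group side of "p-length ≤ derived length of a Sylow p-subgroup" (p odd, p-soluble),
-- reduced to a linear Hall–Higman core statement `Core`.
import Mathlib
import Cfsg.Prelude.Def_Local
import Cfsg.Agent.S0635
import Cfsg.Agent.S3783
import Cfsg.Agent.Lib.Helper70.HallHigman2
import Cfsg.Agent.Lib.Helper74.DualHH
import Cfsg.Agent.Lib.Helper76.PSolv
import Cfsg.Agent.Lib.Helper63.PLength

set_option autoImplicit false
open Cfsg

namespace Cfsg.Agent.Lib.Helper96.DerLen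

open Cfsg.Agent.Lib.Helper70.HallHigman2
open Cfsg.Agent.Lib.Helper76.PSolv Cfsg.Agent.Lib.Helper63.PLength
open scoped commutatorElement

universe u

/-- The linear core (a Hall–Higman type statement), as a hypothesis. -/
def Core (p : ℕ) : Prop :=
  ∀ (V : Type u) [Group V] [Finite V],
    (∀ a b : V, a * b = b * a) → (∀ a : V, a ^ p = 1) →
    ∀ (N B : Subgroup (MulAut V)), (Nat.card N).Coprime p → IsPGroup p B →
    (∀ b ∈ B, ∀ n ∈ N, b * n * b⁻¹ ∈ N) →
    (∀ b ∈ B, (∀ n ∈ N, b * n = n * b) → b = 1) →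
    (∀ a ∈ ⁅B, B⁆, ∀ a' ∈ ⁅B, B⁆, ∀ v : V, a (a' v * v⁻¹) = a' v * v⁻¹) →
    (∀ a ∈ ⁅B, B⁆, ∀ b ∈ B, ∀ b' ∈ B, ∀ v : V,
      a (b (b' v * v⁻¹) * (b' v * v⁻¹)⁻¹) = b (b' v * v⁻¹) * (b' v * v⁻¹)⁻¹) →
    ⁅B, B⁆ = ⊥

section Psi

variable {G : Type u} [Group G] (Q : Subgroup G) [Q.Normal]

theorem act_one (v : ↥Q ⧸ frattini ↥Q) : act Q 1 v = v := by
  obtain ⟨u, rfl⟩ := QuotientGroup.mk_surjective v
  rw [act_mk, map_one, MulAut.one_apply]

/-- The conjugation action on the Frattini quotient of a normal subgroup, as a homomorphism. -/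
noncomputable def psi : G →* MulAut (↥Q ⧸ frattini ↥Q) where
  toFun g :=
    { toFun := act Q g
      invFun := act Q g⁻¹
      left_inv := fun v => by rw [← act_mul, inv_mul_cancel, act_one]
      right_inv := fun v => by rw [← act_mul, mul_inv_cancel, act_one]
      map_mul' := map_mul (act Q g) }
  map_one' := by
    ext v
    exact act_one Q v
  map_mul' g h := by
    ext v
    exact act_mul Q g h v

theorem psi_apply (g : G) (v : ↥Q ⧸ frattini ↥Q) : psi Q g v = act Q g v := rfl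

theorem psi_mk (g : G) (u : ↥Q) :
    psi Q g (QuotientGroup.mk u) = QuotientGroup.mk ((MulAut.conjNormal g : MulAut ↥Q) u) := rfl

theorem psi_mk_mul_inv (g : G) (u : ↥Q) :
    psi Q g (QuotientGroup.mk u) * (QuotientGroup.mk u : ↥Q ⧸ frattini ↥Q)⁻¹
      = QuotientGroup.mk ((MulAut.conjNormal g : MulAut ↥Q) u * u⁻¹) := by
  rw [psi_mk, QuotientGroup.mk_mul, QuotientGroup.mk_inv]

theorem coe_conj_mul_inv (g : G) (u : ↥Q) :
    (((MulAut.conjNormal g : MulAut ↥Q) u * u⁻¹ : ↥Q) : G) = g * u * g⁻¹ * (u : G)⁻¹ := by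
  rw [Subgroup.coe_mul, MulAut.conjNormal_apply, Subgroup.coe_inv]

end Psi

/-- Derived length of the Sylow subgroup of a quotient. -/
theorem derived_quot {G : Type u} [Group G] [Finite G] (p : ℕ) [Fact p.Prime] (N : Subgroup G)
    [N.Normal] (S : Sylow p G) (k : ℕ)
    (h : ∀ z : ↥(S : Subgroup G), z ∈ derivedSeries ↥(S : Subgroup G) k → (z : G) ∈ N) :
    derivedSeries ↥((S.mapSurjective (QuotientGroup.mk'_surjective N) : Sylow p (G ⧸ N)) :
      Subgroup (G ⧸ N)) k = ⊥ := by
  have hsurj := (QuotientGroup.mk' N).subgroupMap_surjective (S : Subgroup G)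
  have h1 := map_derivedSeries_eq hsurj k
  show derivedSeries ↥((S : Subgroup G).map (QuotientGroup.mk' N)) k = ⊥
  rw [← h1, Subgroup.map_eq_bot_iff]
  intro z hz
  rw [MonoidHom.mem_ker]
  apply Subtype.ext
  show QuotientGroup.mk' N (z : G) = 1
  rw [QuotientGroup.mk'_apply, QuotientGroup.eq_one_iff]
  exact h z hz

/-- The key step: with `O_{p'}(G) = 1`, the last nontrivial term of the derived series of a
Sylow `p`-subgroup of derived length `≥ 2` lies in `O_p(G)`. -/
theorem key {G : Type u} [Group G] [Finite G] (p : ℕ) [Fact p.Prime] (hC : Core.{u} p)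
    (hG : IsPSolvable p G) (hcore : pPrimeCore p G = ⊥) (S : Sylow p G) (m : ℕ)
    (hS : derivedSeries ↥(S : Subgroup G) (m + 2) = ⊥) :
    ∀ z : ↥(S : Subgroup G), z ∈ derivedSeries ↥(S : Subgroup G) (m + 1) →
      (z : G) ∈ pCore p G := by
  classical
  have hp : p.Prime := Fact.out
  have hQP : pCore p G ≤ S := pCore_le_sylow S
  have hQp : IsPGroup p (pCore p G) := pCore_isPGroup p
  have hcent : Subgroup.centralizer ((pCore p G : Subgroup G) : Set G) ≤ pCore p G :=
    centralizer_pCore_le p hG hcore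
  -- the derived series of `S`, as subgroups of `G`
  obtain ⟨D, hD⟩ : ∃ D : ℕ → Subgroup G,
      D = fun k => (derivedSeries ↥(S : Subgroup G) k).map (S : Subgroup G).subtype := ⟨_, rfl⟩
  have hDsucc : ∀ k, D (k + 1) = ⁅D k, D k⁆ := by
    intro k
    rw [hD]
    show (derivedSeries ↥(S : Subgroup G) (k + 1)).map (S : Subgroup G).subtype = _
    rw [derivedSeries_succ, Subgroup.map_commutator]
  have hDS : ∀ k, D k ≤ S := by
    intro k x hx
    rw [hD] at hx
    obtain ⟨y, -, rfl⟩ := Subgroup.mem_map.mp hx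
    exact y.2
  have hDn : ∀ k, ∀ s ∈ (S : Subgroup G), ∀ x ∈ D k, s * x * s⁻¹ ∈ D k := by
    intro k s hs x hx
    rw [hD] at hx ⊢
    obtain ⟨y, hy, rfl⟩ := Subgroup.mem_map.mp hx
    have hn : (derivedSeries ↥(S : Subgroup G) k).Normal := derivedSeries_normal _ k
    exact Subgroup.mem_map.mpr ⟨⟨s, hs⟩ * y * ⟨s, hs⟩⁻¹, hn.conj_mem y hy ⟨s, hs⟩, rfl⟩
  have hDbot : D (m + 2) = ⊥ := by
    rw [hD]
    show (derivedSeries ↥(S : Subgroup G) (m + 2)).map (S : Subgroup G).subtype = ⊥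
    rw [hS, Subgroup.map_bot]
  have hDcomm : ∀ x ∈ D (m + 1), ∀ y ∈ D (m + 1), x * y = y * x := by
    intro x hx y hy
    have h1 : ⁅x, y⁆ ∈ D (m + 2) := by
      rw [hDsucc (m + 1)]
      exact Subgroup.commutator_mem_commutator hx hy
    rw [hDbot, Subgroup.mem_bot] at h1
    exact commutatorElement_eq_one_iff_mul_comm.mp h1
  -- the module `V` and the action
  have hVc : ∀ a b : ↥(pCore p G) ⧸ frattini ↥(pCore p G), a * b = b * a := by
    intro a b
    obtain ⟨u, rfl⟩ := QuotientGroup.mk_surjective a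
    obtain ⟨w, rfl⟩ := QuotientGroup.mk_surjective b
    rw [← QuotientGroup.mk_mul, ← QuotientGroup.mk_mul]
    apply QuotientGroup.eq.mpr
    have h1 : (u * w)⁻¹ * (w * u) = ⁅w⁻¹, u⁻¹⁆ := by
      rw [commutatorElement_def]; group
    rw [h1]
    exact Cfsg.Agent.Lib.Helper70.FrattiniQuot.commutator_le_frattini hQp
      (Subgroup.commutator_mem_commutator (Subgroup.mem_top _) (Subgroup.mem_top _))
  have hVp : ∀ a : ↥(pCore p G) ⧸ frattini ↥(pCore p G), a ^ p = 1 := by
    intro a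
    obtain ⟨u, rfl⟩ := QuotientGroup.mk_surjective a
    rw [← QuotientGroup.mk_pow]
    exact (QuotientGroup.eq_one_iff _).mpr
      (Cfsg.Agent.Lib.Helper70.FrattiniQuot.pow_mem_frattini hQp u)
  have hker : ∀ g : G, psi (pCore p G) g = 1 ↔ g ∈ pCore p G := by
    intro g
    constructor
    · intro h
      have h1 : ∀ v : ↥(pCore p G) ⧸ frattini ↥(pCore p G), act (pCore p G) g v = v := by
        intro v
        rw [← psi_apply, h, MulAut.one_apply]
      exact (mem_pCore_iff_of_centralizer_le p hcent g).mp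
        ((act_eq_self_iff (pCore p G) g).mp h1)
    · intro h
      have h1 := (act_eq_self_iff (pCore p G) g).mpr
        ((mem_pCore_iff_of_centralizer_le p hcent g).mpr h)
      ext v
      rw [psi_apply, h1 v, MulAut.one_apply]
  -- the induced hom on the quotient
  have hle : pCore p G ≤ (psi (pCore p G)).ker := by
    intro g hg
    rw [MonoidHom.mem_ker]
    exact (hker g).mpr hg
  obtain ⟨ψb, hψb⟩ : ∃ ψb : G ⧸ pCore p G →* MulAut (↥(pCore p G) ⧸ frattini ↥(pCore p G)),
      ∀ g : G, ψb (g : G ⧸ pCore p G) = psi (pCore p G) g :=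
    ⟨QuotientGroup.lift (pCore p G) (psi (pCore p G)) hle, fun g => rfl⟩
  have hψinj : ∀ x y : G ⧸ pCore p G, ψb x = ψb y → x = y := by
    intro x y hxy
    obtain ⟨g, rfl⟩ := QuotientGroup.mk_surjective x
    obtain ⟨h, rfl⟩ := QuotientGroup.mk_surjective y
    rw [hψb, hψb] at hxy
    have h1 : psi (pCore p G) (g⁻¹ * h) = 1 := by
      rw [map_mul, map_inv, hxy, inv_mul_cancel]
    exact QuotientGroup.eq.mpr ((hker _).mp h1)
  have hsolvb : IsPSolvable p (G ⧸ pCore p G) := isPSolvable_quotient p (pCore p G) hG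
  have hcoreb : pCore p (G ⧸ pCore p G) = ⊥ := Cfsg.Agent.S3783.pCore_quot_bot p
  have hcentb := Cfsg.Agent.Lib.Helper74.DualHH.centralizer_pPrimeCore_le p hsolvb hcoreb
  have hK₀n : (pPrimeCore p (G ⧸ pCore p G)).Normal := (pPrimeCore_mem p).1
  have hK₀c : (Nat.card (pPrimeCore p (G ⧸ pCore p G))).Coprime p := pPrimeCore_coprime p
  obtain ⟨N, hN⟩ : ∃ N : Subgroup (MulAut (↥(pCore p G) ⧸ frattini ↥(pCore p G))),
      N = (pPrimeCore p (G ⧸ pCore p G)).map ψb := ⟨_, rfl⟩
  obtain ⟨B, hB⟩ : ∃ B : Subgroup (MulAut (↥(pCore p G) ⧸ frattini ↥(pCore p G))),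
      B = (D m).map (psi (pCore p G)) := ⟨_, rfl⟩
  have hNc : (Nat.card N).Coprime p := by
    rw [hN]
    exact Nat.Coprime.coprime_dvd_left (Subgroup.card_map_dvd _ _) hK₀c
  have hBp : IsPGroup p B := by
    rw [hB]
    exact (S.isPGroup'.to_le (hDS m)).map _
  have hBN : ∀ b ∈ B, ∀ n ∈ N, b * n * b⁻¹ ∈ N := by
    intro b hb n hn
    rw [hB] at hb
    rw [hN] at hn ⊢
    obtain ⟨y, -, rfl⟩ := Subgroup.mem_map.mp hb
    obtain ⟨k, hk, rfl⟩ := Subgroup.mem_map.mp hn
    refine Subgroup.mem_map.mpr ⟨(y : G ⧸ pCore p G) * k * (y : G ⧸ pCore p G)⁻¹,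
      hK₀n.conj_mem k hk _, ?_⟩
    rw [map_mul, map_mul, map_inv, hψb]
  have hfaith : ∀ b ∈ B, (∀ n ∈ N, b * n = n * b) → b = 1 := by
    intro b hb hbn
    rw [hB] at hb
    obtain ⟨y, hy, rfl⟩ := Subgroup.mem_map.mp hb
    have h1 : (y : G ⧸ pCore p G) ∈ Subgroup.centralizer
        (pPrimeCore p (G ⧸ pCore p G) : Set (G ⧸ pCore p G)) := by
      rw [Subgroup.mem_centralizer_iff]
      intro k hk
      apply hψinj
      rw [map_mul, map_mul, hψb]
      have h2 : ψb k ∈ N := by rw [hN]; exact Subgroup.mem_map.mpr ⟨k, hk, rfl⟩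
      exact (hbn _ h2).symm
    have h2 : (y : G ⧸ pCore p G) ∈ pPrimeCore p (G ⧸ pCore p G) := hcentb h1
    have h3 : orderOf (y : G ⧸ pCore p G) ∣ Nat.card (pPrimeCore p (G ⧸ pCore p G)) :=
      Subgroup.orderOf_dvd_natCard _ h2
    obtain ⟨j, hj⟩ := S.isPGroup' ⟨y, hDS m hy⟩
    have hj' : y ^ p ^ j = 1 := by
      have := congrArg Subtype.val hj
      simpa using this
    have h4 : (y : G ⧸ pCore p G) ^ p ^ j = 1 := by
      rw [← QuotientGroup.mk_pow, hj', QuotientGroup.mk_one]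
    have h5 : orderOf (y : G ⧸ pCore p G) ∣ p ^ j := orderOf_dvd_of_pow_eq_one h4
    have h6 : orderOf (y : G ⧸ pCore p G) = 1 :=
      Nat.eq_one_of_dvd_coprimes (Nat.Coprime.pow_right j hK₀c) h3 h5
    have h7 : (y : G ⧸ pCore p G) = 1 := orderOf_eq_one_iff.mp h6
    exact (hker y).mpr ((QuotientGroup.eq_one_iff y).mp h7)
  have hBB : ⁅B, B⁆ = (D (m + 1)).map (psi (pCore p G)) := by
    rw [hB, hDsucc m, Subgroup.map_commutator]
  -- elements of `D (m+1)` act trivially on classes of elements of `D (m+1) ∩ Q`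
  have hL : ∀ x ∈ D (m + 1), ∀ w : ↥(pCore p G), (w : G) ∈ D (m + 1) →
      psi (pCore p G) x (QuotientGroup.mk w) = QuotientGroup.mk w := by
    intro x hx w hw
    rw [psi_mk]
    congr 1
    apply Subtype.ext
    rw [MulAut.conjNormal_apply, hDcomm x hx w hw, mul_inv_cancel_right]
  have h1 : ∀ a ∈ ⁅B, B⁆, ∀ a' ∈ ⁅B, B⁆, ∀ v : ↥(pCore p G) ⧸ frattini ↥(pCore p G),
      a (a' v * v⁻¹) = a' v * v⁻¹ := by
    intro a ha a' ha' v
    rw [hBB] at ha ha'
    obtain ⟨x, hx, rfl⟩ := Subgroup.mem_map.mp ha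
    obtain ⟨x', hx', rfl⟩ := Subgroup.mem_map.mp ha'
    obtain ⟨u, rfl⟩ := QuotientGroup.mk_surjective v
    rw [psi_mk_mul_inv]
    apply hL x hx
    rw [coe_conj_mul_inv]
    have h2 : (u : G) * x'⁻¹ * (u : G)⁻¹ ∈ D (m + 1) :=
      hDn (m + 1) u (hQP u.2) _ (Subgroup.inv_mem _ hx')
    have h3 : x' * u * x'⁻¹ * (u : G)⁻¹ = x' * ((u : G) * x'⁻¹ * (u : G)⁻¹) := by group
    rw [h3]
    exact Subgroup.mul_mem _ hx' h2
  have h2 : ∀ a ∈ ⁅B, B⁆, ∀ b ∈ B, ∀ b' ∈ B, ∀ v : ↥(pCore p G) ⧸ frattini ↥(pCore p G),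
      a (b (b' v * v⁻¹) * (b' v * v⁻¹)⁻¹) = b (b' v * v⁻¹) * (b' v * v⁻¹)⁻¹ := by
    intro a ha b hb b' hb' v
    rw [hBB] at ha
    rw [hB] at hb hb'
    obtain ⟨x, hx, rfl⟩ := Subgroup.mem_map.mp ha
    obtain ⟨y, hy, rfl⟩ := Subgroup.mem_map.mp hb
    obtain ⟨y', hy', rfl⟩ := Subgroup.mem_map.mp hb'
    obtain ⟨u, rfl⟩ := QuotientGroup.mk_surjective v
    rw [psi_mk_mul_inv, psi_mk_mul_inv]
    apply hL x hx
    rw [coe_conj_mul_inv]
    have h3 : (((MulAut.conjNormal y' : MulAut ↥(pCore p G)) u * u⁻¹ : ↥(pCore p G)) : G)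
        ∈ D m := by
      rw [coe_conj_mul_inv]
      have h4 : (u : G) * y'⁻¹ * (u : G)⁻¹ ∈ D m :=
        hDn m u (hQP u.2) _ (Subgroup.inv_mem _ hy')
      have h5 : y' * u * y'⁻¹ * (u : G)⁻¹ = y' * ((u : G) * y'⁻¹ * (u : G)⁻¹) := by group
      rw [h5]
      exact Subgroup.mul_mem _ hy' h4
    rw [hDsucc m]
    have h6 := Subgroup.commutator_mem_commutator hy h3
    rw [commutatorElement_def] at h6
    exact h6
  have hbot : ⁅B, B⁆ = ⊥ :=
    hC (↥(pCore p G) ⧸ frattini ↥(pCore p G)) hVc hVp N B hNc hBp hBN hfaith h1 h2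
  intro z hz
  have hzD : (z : G) ∈ D (m + 1) := by
    rw [hD]
    exact Subgroup.mem_map.mpr ⟨z, hz, rfl⟩
  have h3 : psi (pCore p G) (z : G) ∈ ⁅B, B⁆ := by
    rw [hBB]
    exact Subgroup.mem_map.mpr ⟨_, hzD, rfl⟩
  rw [hbot, Subgroup.mem_bot] at h3
  exact (hker _).mp h3

theorem main (p : ℕ) [Fact p.Prime] (hC : Core.{u} p) :
    ∀ (n : ℕ) (G : Type u) [Group G] [Finite G],
    Nat.card G = n → IsPSolvable p G → ∀ (d : ℕ) (S : Sylow p G),
    derivedSeries ↥(S : Subgroup G) d = ⊥ → PLengthLE p d G := by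
  have hp : p.Prime := Fact.out
  intro n
  induction n using Nat.strong_induction_on with
  | _ n ih =>
    intro G _ _ hn hG d S hS
    match d, hS with
    | 0, hS =>
      have hall : ∀ x : ↥(S : Subgroup G), x = 1 := by
        intro x
        have h1 : x ∈ (⊤ : Subgroup ↥(S : Subgroup G)) := Subgroup.mem_top x
        rw [← derivedSeries_zero, hS] at h1
        exact Subgroup.mem_bot.mp h1
      have hbot : (S : Subgroup G) = ⊥ := by
        rw [Subgroup.eq_bot_iff_forall]
        intro x hx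
        exact congrArg Subtype.val (hall ⟨x, hx⟩)
      apply pLengthLE_zero_of_coprime
      rw [Nat.coprime_comm, Nat.Prime.coprime_iff_not_dvd hp]
      intro hdvd
      exact S.ne_bot_of_dvd_card hdvd hbot
    | 1, hS =>
      have : Group.IsNilpotent ↥(S : Subgroup G) := S.isPGroup'.isNilpotent
      apply Cfsg.Agent.S0635.main p 1 G hG S
      rw [← Subgroup.upperCentralSeries_eq_top_iff_nilpotencyClass_le,
        Subgroup.upperCentralSeries_one, eq_top_iff]
      intro x _
      rw [Subgroup.mem_center_iff]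
      intro y
      have h1 : ⁅y, x⁆ ∈ derivedSeries ↥(S : Subgroup G) 1 := by
        rw [derivedSeries_one]
        exact Subgroup.commutator_mem_commutator (Subgroup.mem_top _) (Subgroup.mem_top _)
      rw [hS, Subgroup.mem_bot] at h1
      exact commutatorElement_eq_one_iff_mul_comm.mp h1
    | m + 2, hS =>
      by_cases hK : pPrimeCore p G = ⊥
      · by_cases hQ : pCore p G = ⊥
        · have hcent := centralizer_pCore_le p hG hK
          rw [hQ] at hcent
          have hcard : Nat.card G = 1 := by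
            rw [← Subgroup.card_top (G := G)]
            have htop : (⊤ : Subgroup G) = ⊥ := by
              rw [eq_bot_iff]
              intro g _
              apply hcent
              rw [Subgroup.mem_centralizer_iff]
              intro h hh
              rw [Subgroup.coe_bot, Set.mem_singleton_iff] at hh
              rw [hh, one_mul, mul_one]
            rw [htop, Subgroup.card_bot]
          have h0 : PLengthLE p 0 G :=
            pLengthLE_zero_of_coprime (by rw [hcard]; exact Nat.coprime_one_left p)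
          exact PLengthLE.mono h0 (Nat.zero_le _)
        · have hkey := key p hC hG hK S m hS
          have hlt : Nat.card (G ⧸ pCore p G) < n := by
            rw [← hn]; exact Cfsg.Agent.S3783.card_quot_lt _ hQ
          have hq := ih _ hlt (G ⧸ pCore p G) rfl (isPSolvable_quotient p _ hG) (m + 1)
            (S.mapSurjective (QuotientGroup.mk'_surjective (pCore p G)))
            (derived_quot p (pCore p G) S (m + 1) hkey)
          obtain ⟨a, ha⟩ := (IsPGroup.iff_card).mp (pCore_isPGroup p : IsPGroup p (pCore p G))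
          have hQ1 : PLengthLE p 1 (pCore p G) := pLengthLE_one_of_card ha
          have h2 := pLengthLE_add (pCore p G) hQ1 hq
          have h3 : 1 + (m + 1) = m + 2 := by omega
          rwa [h3] at h2
      · have hKn : (pPrimeCore p G).Normal := (pPrimeCore_mem p).1
        have hlt : Nat.card (G ⧸ pPrimeCore p G) < n := by
          rw [← hn]; exact Cfsg.Agent.S3783.card_quot_lt _ hK
        have hS' : ∀ z : ↥(S : Subgroup G), z ∈ derivedSeries ↥(S : Subgroup G) (m + 2) →
            (z : G) ∈ pPrimeCore p G := by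
          intro z hz
          rw [hS, Subgroup.mem_bot] at hz
          rw [hz]; exact Subgroup.one_mem _
        have hq := ih _ hlt (G ⧸ pPrimeCore p G) rfl (isPSolvable_quotient p _ hG) (m + 2)
          (S.mapSurjective (QuotientGroup.mk'_surjective (pPrimeCore p G)))
          (derived_quot p (pPrimeCore p G) S (m + 2) hS')
        have h0 : PLengthLE p 0 (pPrimeCore p G) :=
          pLengthLE_zero_of_coprime (pPrimeCore_coprime p)
        have h2 := pLengthLE_add (pPrimeCore p G) h0 hq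
        rwa [zero_add] at h2

end Cfsg.Agent.Lib.Helper96.DerLen
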