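import Mathlib
import Cfsg.Agent.Lib.Helper74.DixStmt
import Cfsg.Agent.Lib.Helper74.DualHH
import Cfsg.Agent.Lib.Helper76.PSolv
import Cfsg.Agent.Lib.Helper47.Basic

/-!
# S4472 / GRPA1 (call by helper74, second seat)

`U = O_p(G)`, `M` the preimage of `O_{p'}(G / U)`, `K` a complement of `U` in `M`
(Schur–Zassenhaus); a `p`-element centralizing `K` lies in `U` (dual Hall–Higman in `G / U`).
-/

set_option autoImplicit false

namespace Cfsg.Agent.Lib.Helper96.DixGRPA1

open Cfsg Cfsg.Agent.Lib.Helper74.DixStmt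

universe u

theorem main : GrpA1.{u} := by
  intro G _ _ p _ hsolv
  have hUn : (pCore p G).Normal := Cfsg.Agent.Lib.Helper47.Basic.pCore_normal p G
  have hUp : IsPGroup p (pCore p G) := Cfsg.Agent.Lib.Helper47.Basic.pCore_isPGroup p G
  have hsurj : Function.Surjective (QuotientGroup.mk' (pCore p G)) :=
    QuotientGroup.mk'_surjective _
  have hker : (QuotientGroup.mk' (pCore p G)).ker = pCore p G := QuotientGroup.ker_mk' _
  have hpr : (Nat.Prime p) := Fact.out
  -- the quotient has trivial `p`-core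
  have hcore : pCore p (G ⧸ pCore p G) = ⊥ := by
    have hCn := Cfsg.Agent.Lib.Helper47.Basic.pCore_normal p (G ⧸ pCore p G)
    have hCp := Cfsg.Agent.Lib.Helper47.Basic.pCore_isPGroup p (G ⧸ pCore p G)
    have hKn := hCn.comap (QuotientGroup.mk' (pCore p G))
    have hKp := hCp.comap_of_ker_isPGroup (QuotientGroup.mk' (pCore p G)) (by
      rw [hker]
      exact hUp)
    have hK := Cfsg.Agent.Lib.Helper47.Basic.le_pCore hKn hKp
    rw [eq_bot_iff]
    intro s hs
    obtain ⟨g, rfl⟩ := hsurj s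
    have hg : g ∈ pCore p G := hK hs
    rw [Subgroup.mem_bot]
    exact (QuotientGroup.eq_one_iff g).mpr hg
  have hsolvb : IsPSolvable p (G ⧸ pCore p G) :=
    Cfsg.Agent.Lib.Helper76.PSolv.isPSolvable_quotient p _ hsolv
  have hcent := Cfsg.Agent.Lib.Helper74.DualHH.centralizer_pPrimeCore_le p hsolvb hcore
  obtain ⟨hMbn, hMbc⟩ := Cfsg.Agent.Lib.Helper76.PSolv.pPrimeCore_mem (G := G ⧸ pCore p G) p
  have hMn : ((pPrimeCore p (G ⧸ pCore p G)).comap (QuotientGroup.mk' (pCore p G))).Normal :=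
    hMbn.comap _
  have hUM : pCore p G ≤
      (pPrimeCore p (G ⧸ pCore p G)).comap (QuotientGroup.mk' (pCore p G)) := by
    intro g hg
    show (QuotientGroup.mk' (pCore p G)) g ∈ pPrimeCore p (G ⧸ pCore p G)
    have e : (QuotientGroup.mk' (pCore p G)) g = 1 := (QuotientGroup.eq_one_iff g).mpr hg
    rw [e]
    exact Subgroup.one_mem _
  -- the order of `M`
  have hcardM : Nat.card ((pPrimeCore p (G ⧸ pCore p G)).comap (QuotientGroup.mk' (pCore p G)))
      = Nat.card (pCore p G) * Nat.card (pPrimeCore p (G ⧸ pCore p G)) := by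
    have h1 := Subgroup.card_mul_index
      ((pPrimeCore p (G ⧸ pCore p G)).comap (QuotientGroup.mk' (pCore p G)))
    have h2 := Subgroup.index_comap_of_surjective (pPrimeCore p (G ⧸ pCore p G)) hsurj
    have h3 := Subgroup.card_mul_index (pPrimeCore p (G ⧸ pCore p G))
    have h4 := Subgroup.card_eq_card_quotient_mul_card_subgroup (pCore p G)
    have h5 : (pPrimeCore p (G ⧸ pCore p G)).index ≠ 0 := Subgroup.index_ne_zero_of_finite
    rw [h2] at h1
    apply Nat.eq_of_mul_eq_mul_right (Nat.pos_of_ne_zero h5)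
    rw [h1, h4, ← h3]
    ring
  -- the complement
  have hN1card : Nat.card ((pCore p G).subgroupOf
      ((pPrimeCore p (G ⧸ pCore p G)).comap (QuotientGroup.mk' (pCore p G)))) =
      Nat.card (pCore p G) :=
    Nat.card_congr (Subgroup.subgroupOfEquivOfLe hUM).toEquiv
  have hUpos : 0 < Nat.card (pCore p G) := Nat.card_pos
  have hidx : ((pCore p G).subgroupOf
      ((pPrimeCore p (G ⧸ pCore p G)).comap (QuotientGroup.mk' (pCore p G)))).index =
      Nat.card (pPrimeCore p (G ⧸ pCore p G)) := by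
    have h1 := Subgroup.card_mul_index ((pCore p G).subgroupOf
      ((pPrimeCore p (G ⧸ pCore p G)).comap (QuotientGroup.mk' (pCore p G))))
    rw [hN1card, hcardM] at h1
    exact Nat.eq_of_mul_eq_mul_left hUpos h1
  have hcop : Nat.Coprime (Nat.card ((pCore p G).subgroupOf
      ((pPrimeCore p (G ⧸ pCore p G)).comap (QuotientGroup.mk' (pCore p G)))))
      ((pCore p G).subgroupOf
      ((pPrimeCore p (G ⧸ pCore p G)).comap (QuotientGroup.mk' (pCore p G)))).index := by
    rw [hN1card, hidx]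
    obtain ⟨k, hk⟩ := IsPGroup.iff_card.mp hUp
    rw [hk]
    exact (Nat.Coprime.pow_right k hMbc).symm
  obtain ⟨K', hK'⟩ := Subgroup.exists_right_complement'_of_coprime hcop
  have hK'card : Nat.card K' = Nat.card (pPrimeCore p (G ⧸ pCore p G)) := by
    have h1 := hK'.card_mul_card
    rw [hN1card, hcardM] at h1
    exact Nat.eq_of_mul_eq_mul_left hUpos h1
  have hKcard : Nat.card (K'.map
      ((pPrimeCore p (G ⧸ pCore p G)).comap (QuotientGroup.mk' (pCore p G))).subtype) =
      Nat.card K' :=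
    Subgroup.card_map_of_injective (Subgroup.subtype_injective _)
  refine ⟨(pPrimeCore p (G ⧸ pCore p G)).comap (QuotientGroup.mk' (pCore p G)),
    K'.map ((pPrimeCore p (G ⧸ pCore p G)).comap (QuotientGroup.mk' (pCore p G))).subtype,
    hMn, hUM, Subgroup.map_subtype_le _, ?_, ?_, ?_⟩
  · rw [hKcard, hK'card]
    exact hMbc
  · rw [hKcard, hK'card, hcardM]
  · intro x hx hxK
    obtain ⟨j, hj⟩ := hx
    -- the image of `x` centralizes the `p'`-core
    have hc : (QuotientGroup.mk' (pCore p G)) x ∈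
        Subgroup.centralizer (pPrimeCore p (G ⧸ pCore p G) : Set (G ⧸ pCore p G)) := by
      rw [Subgroup.mem_centralizer_iff]
      intro y hy
      obtain ⟨g, rfl⟩ := hsurj y
      have hgM : g ∈ (pPrimeCore p (G ⧸ pCore p G)).comap (QuotientGroup.mk' (pCore p G)) := hy
      obtain ⟨⟨n, k⟩, hnk, -⟩ := (Subgroup.isComplement_iff_existsUnique.mp hK') ⟨g, hgM⟩
      have hnk' : ((n : ↥((pPrimeCore p (G ⧸ pCore p G)).comap
          (QuotientGroup.mk' (pCore p G)))) : G) * ((k : ↥((pPrimeCore p (G ⧸ pCore p G)).comap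
          (QuotientGroup.mk' (pCore p G)))) : G) = g := congrArg Subtype.val hnk
      have hnU : ((n : ↥((pPrimeCore p (G ⧸ pCore p G)).comap
          (QuotientGroup.mk' (pCore p G)))) : G) ∈ pCore p G := n.2
      have hkK : ((k : ↥((pPrimeCore p (G ⧸ pCore p G)).comap
          (QuotientGroup.mk' (pCore p G)))) : G) ∈ K'.map
          ((pPrimeCore p (G ⧸ pCore p G)).comap (QuotientGroup.mk' (pCore p G))).subtype :=
        ⟨k.1, k.2, rfl⟩
      have hcomm := hxK _ hkK
      have e1 : (QuotientGroup.mk' (pCore p G)) g = (QuotientGroup.mk' (pCore p G))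
          ((k : ↥((pPrimeCore p (G ⧸ pCore p G)).comap
          (QuotientGroup.mk' (pCore p G)))) : G) := by
        have en : (QuotientGroup.mk' (pCore p G)) ((n : ↥((pPrimeCore p (G ⧸ pCore p G)).comap
            (QuotientGroup.mk' (pCore p G)))) : G) = 1 := (QuotientGroup.eq_one_iff _).mpr hnU
        rw [← hnk', map_mul, en, one_mul]
      rw [e1, ← map_mul, ← map_mul, hcomm]
    have hmem := hcent hc
    have hd1 : orderOf ((QuotientGroup.mk' (pCore p G)) x) ∣ p ^ j := by
      apply orderOf_dvd_of_pow_eq_one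
      rw [← map_pow, hj, map_one]
    have hd2 : orderOf ((QuotientGroup.mk' (pCore p G)) x) ∣
        Nat.card (pPrimeCore p (G ⧸ pCore p G)) := Subgroup.orderOf_dvd_natCard _ hmem
    have hc1 : (orderOf ((QuotientGroup.mk' (pCore p G)) x)).Coprime (p ^ j) :=
      Nat.Coprime.pow_right j (Nat.Coprime.coprime_dvd_left hd2 hMbc)
    have h1 : orderOf ((QuotientGroup.mk' (pCore p G)) x) = 1 :=
      Nat.Coprime.eq_one_of_dvd hc1 hd1
    exact (QuotientGroup.eq_one_iff x).mp (orderOf_eq_one_iff.mp h1)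

end Cfsg.Agent.Lib.Helper96.DixGRPA1
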