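import Cfsg.Agent.Lib.Helper26.J3Stmt

set_option autoImplicit false
universe u v w

namespace Cfsg.Agent.Lib.Helper96.J3TRANS

open Matrix

/-- a ring isomorphism induces an isomorphism of symplectic groups. -/
noncomputable def spCongr {l : Type*} [DecidableEq l] [Fintype l] {A B : Type*} [CommRing A] [CommRing B]
    (e : A ≃+* B) : Matrix.symplecticGroup l A ≃* Matrix.symplecticGroup l B where
  toFun M := ⟨M.1.map (e : A →+* B), SymplecticGroup.map_mem M.2 (e : A →+* B)⟩
  invFun M := ⟨M.1.map (e.symm : B →+* A), SymplecticGroup.map_mem M.2 (e.symm : B →+* A)⟩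
  left_inv M := by
    apply Subtype.ext
    ext i j
    simp
  right_inv M := by
    apply Subtype.ext
    ext i j
    simp
  map_mul' M N := by
    apply Subtype.ext
    exact Matrix.map_mul

theorem map_center_eq {G H : Type*} [Group G] [Group H] (e : G ≃* H) :
    (Subgroup.center G).map e.toMonoidHom = Subgroup.center H := by
  ext x
  rw [Subgroup.mem_map_equiv, Subgroup.mem_center_iff, Subgroup.mem_center_iff]
  constructor
  · intro h g
    have h1 := h (e.symm g)
    apply e.symm.injective
    simpa using h1
  · intro h g
    have h1 := h (e g)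
    apply e.injective
    simpa using h1

theorem main : Cfsg.Agent.Lib.Helper26.J3Stmt.TRANS.{v} := by
  intro F _ _ hF
  have e : ZMod 3 ≃+* F := ZMod.ringEquivOfPrime F Nat.prime_three hF
  exact ⟨QuotientGroup.congr _ _ (spCongr e) (map_center_eq (spCongr e))⟩

end Cfsg.Agent.Lib.Helper96.J3TRANS
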