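import Cfsg.Agent.Lib.Helper26.J3Stmt

set_option autoImplicit false
universe u v w

namespace Cfsg.Agent.Lib.Helper96.J3XFER

theorem main : Cfsg.Agent.Lib.Helper26.J3Stmt.XFER.{u,v,w} := by
  intro X _ G _ G' _ e ⟨c, S, hc, hcS, hcC, ⟨f⟩⟩
  have hinj : Function.Injective e.symm.toMonoidHom := e.symm.injective
  have hr : (S : Subgroup G) ≤ (e.symm.toMonoidHom).range := by
    intro x _
    exact ⟨e x, by simp⟩
  have hmem : ∀ y : G', y ∈ ((S.comapOfInjective e.symm.toMonoidHom hinj hr : Sylow 3 G') : Subgroup G')
      ↔ e.symm y ∈ (S : Subgroup G) := by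
    intro y
    rw [Sylow.coe_comapOfInjective, Subgroup.mem_comap]
    rfl
  refine ⟨e c, S.comapOfInjective e.symm.toMonoidHom hinj hr, ?_, ?_, ?_, ?_⟩
  · rw [← hc]
    exact MulEquiv.orderOf_eq e c
  · rw [hmem]
    simpa using hcS
  · rw [Subgroup.mem_centralizer_iff]
    intro y hy
    have hy' : e.symm y ∈ (S : Subgroup G) := (hmem y).mp hy
    have h1 := (Subgroup.mem_centralizer_iff.mp hcC) (e.symm y) hy'
    apply e.symm.injective
    simpa using h1
  · have hmap : (Subgroup.centralizer ({c} : Set G)).map e.toMonoidHom
        = Subgroup.centralizer ({e c} : Set G') := by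
      ext y
      rw [Subgroup.mem_map_equiv, Subgroup.mem_centralizer_iff, Subgroup.mem_centralizer_iff]
      constructor
      · intro h z hz
        rw [Set.mem_singleton_iff] at hz
        subst hz
        have h1 := h c (Set.mem_singleton c)
        apply e.symm.injective
        simpa using h1
      · intro h z hz
        rw [Set.mem_singleton_iff] at hz
        subst hz
        have h1 := h (e z) (Set.mem_singleton _)
        apply e.injective
        simpa using h1
    exact ⟨f.trans ((e.subgroupMap (Subgroup.centralizer ({c} : Set G))).trans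
      (MulEquiv.subgroupCongr hmap))⟩

end Cfsg.Agent.Lib.Helper96.J3XFER
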