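import Mathlib
import Cfsg.Agent.Lib.Helper1.PDStmt

/-!
# S4020 / COMMZ (call by helper1)

`P` of order `p³`, `z ∈ Z(P)` of order `p`: `x b x⁻¹ = b z ^ a`.
-/

set_option autoImplicit false

namespace Cfsg.Agent.Lib.Helper96.PDCOMMZ

open Cfsg.Agent.Lib.Helper1.PDStmt

universe u

theorem main : CommZ.{u} := by
  intro X _ _ p hp P hP z hz hoz hcz x hx b hb
  have hppos : 0 < p := hp.out.pos
  have hoz' : orderOf (⟨z, hz⟩ : ↥P) = p := by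
    rw [← Subgroup.orderOf_coe]
    exact hoz
  have hcen : ∀ n ∈ Subgroup.zpowers (⟨z, hz⟩ : ↥P), ∀ g : ↥P, g * n = n * g := by
    intro n hn g
    obtain ⟨k, rfl⟩ := Subgroup.mem_zpowers_iff.mp hn
    have h1 : Commute g (⟨z, hz⟩ : ↥P) := by
      show g * ⟨z, hz⟩ = ⟨z, hz⟩ * g
      apply Subtype.ext
      exact hcz g g.2
    exact (h1.zpow_right k)
  have hnorm : (Subgroup.zpowers (⟨z, hz⟩ : ↥P)).Normal := by
    constructor
    intro n hn g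
    have e : g * n * g⁻¹ = n := by
      rw [hcen n hn g]
      group
    rw [e]
    exact hn
  have hcardZ : Nat.card (Subgroup.zpowers (⟨z, hz⟩ : ↥P)) = p := by
    rw [Nat.card_zpowers, hoz']
  have hq : Nat.card (↥P ⧸ Subgroup.zpowers (⟨z, hz⟩ : ↥P)) = p ^ 2 := by
    have h1 := Subgroup.card_eq_card_quotient_mul_card_subgroup
      (Subgroup.zpowers (⟨z, hz⟩ : ↥P))
    rw [hP, hcardZ] at h1
    apply Nat.eq_of_mul_eq_mul_right hppos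
    rw [← h1]
    ring
  have hcomm := (IsPGroup.isMulCommutative_of_card_eq_prime_sq (p := p) hq).is_comm.comm
  have hmem : (⟨b, hb⟩ : ↥P)⁻¹ * (⟨x, hx⟩ * ⟨b, hb⟩ * (⟨x, hx⟩ : ↥P)⁻¹) ∈
      Subgroup.zpowers (⟨z, hz⟩ : ↥P) := by
    rw [← QuotientGroup.eq_one_iff]
    have e : ((QuotientGroup.mk' (Subgroup.zpowers (⟨z, hz⟩ : ↥P)))
        ((⟨b, hb⟩ : ↥P)⁻¹ * (⟨x, hx⟩ * ⟨b, hb⟩ * (⟨x, hx⟩ : ↥P)⁻¹))) = 1 := by
      rw [map_mul, map_mul, map_mul, map_inv, map_inv,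
        hcomm ((QuotientGroup.mk' (Subgroup.zpowers (⟨z, hz⟩ : ↥P))) ⟨x, hx⟩)
          ((QuotientGroup.mk' (Subgroup.zpowers (⟨z, hz⟩ : ↥P))) ⟨b, hb⟩)]
      group
    exact e
  have hmem' := mem_powers_iff_mem_zpowers.mpr hmem
  obtain ⟨a, ha⟩ := (Submonoid.mem_powers_iff _ _).mp hmem'
  refine ⟨a, ?_⟩
  have h2 := congrArg Subtype.val ha
  have h3 : z ^ a = b⁻¹ * (x * b * x⁻¹) := by
    simpa using h2
  rw [h3]
  group

end Cfsg.Agent.Lib.Helper96.PDCOMMZ
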