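import Mathlib
import Cfsg.Agent.Lib.Helper96.SylAltBasic

/-!
# S2221, piece MA2: the two factors centralize the even elements of the other part
-/

set_option autoImplicit false

namespace Cfsg.Agent.Lib.Helper96.SAMA2

open Equiv Cfsg.Agent.Lib.Lead.SylTwoSym Cfsg.Agent.Lib.Helper96.SylAltStmt
  Cfsg.Agent.Lib.Helper96.SylAltBasic

theorem main : Cfsg.Agent.Lib.Helper96.SylAltStmt.MA2' := by
  intro hM1 hM3 Ω _ _ S hS A B hAB hsep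
  obtain ⟨U, hU, ⟨τA, hτA, a₀, ha₀, hmA⟩, ⟨τB, hτB, hfixB⟩, hUA, hUB⟩ := hsep
  have hbot : ∀ x, x ∈ A → x ∈ B → x = 1 := by
    intro x hxA hxB
    have h : x ∈ A ⊓ B := ⟨hxA, hxB⟩
    rw [hAB.2.2.2.1] at h
    exact Subgroup.mem_bot.1 h
  refine ⟨U, hU, ⟨τA, hτA, a₀, ha₀, hmA⟩, ⟨τB, hτB, hfixB⟩, ?_, ?_, ?_⟩
  · rcases hM1 Ω S hS B hAB.2.1 (fun q hq x hx => idp_normal_right hAB hq hx) U hU
      ⟨τB, hτB, hfixB⟩ with ⟨x, hxB, hx1, hxsup, hxcen⟩ | h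
    · exfalso
      have hxS : x ∈ S := (mem_ev.1 (hAB.2.1 hxB)).1
      have hxA : x ∈ A := hM3 Ω S hS A U hUA x hxS hxcen hxsup
      exact hx1 (hbot x hxA hxB)
    · exact h
  · have hτA_sup : SupOn τA U := supOn_of_swap_moves hU hτA ha₀ hmA
    rcases hM1 Ω S hS A hAB.1 (fun q hq x hx => idp_normal_left hAB hq hx) Uᶜ (inv_compl hU)
      ⟨τA, hτA, fixOn_compl_of_supOn hτA_sup⟩ with ⟨x, hxA, hx1, hxsup, hxcen⟩ | h
    · exfalso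
      have hxS : x ∈ S := (mem_ev.1 (hAB.1 hxA)).1
      have hxB : x ∈ B := hM3 Ω S hS B Uᶜ hUB x hxS hxcen hxsup
      exact hx1 (hbot x hxA hxB)
    · exact h
  · intro x hxS hxcen
    refine hM3 Ω S hS (ev S) Set.univ ?_ x hxS hxcen (fun a ha => absurd (Set.mem_univ a) ha)
    intro c _ hcov
    by_cases hc : c ∈ U
    · obtain ⟨y, hy, hcz⟩ := hUA c hc hcov
      exact ⟨y, hAB.1 hy, hcz⟩
    · obtain ⟨y, hy, hcz⟩ := hUB c hc hcov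
      exact ⟨y, hAB.2.1 hy, hcz⟩

end Cfsg.Agent.Lib.Helper96.SAMA2
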