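import Mathlib
import Cfsg.Agent.Lib.Helper96.SylAltBasic

/-!
# S2221, piece MB: the final contradiction in the case of several big orbits
-/

set_option autoImplicit false

namespace Cfsg.Agent.Lib.Helper96.SAMB

open Equiv Cfsg.Agent.Lib.Lead.SylTwoSym Cfsg.Agent.Lib.Helper96.SylAltStmt
  Cfsg.Agent.Lib.Helper96.SylAltBasic

theorem main : Cfsg.Agent.Lib.Helper96.SylAltStmt.MB' := by
  intro hF3 hSplit Ω _ _ S hS A B hAB hsep
  obtain ⟨U, hU, ⟨τA, hτA, a₀, ha₀, hmA⟩, ⟨τB, hτB, hfixB⟩, hBc, hAc, hZ⟩ := hsep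
  have hτA_sup : SupOn τA U := supOn_of_swap_moves hU hτA ha₀ hmA
  have hq : τA * τB ∈ ev S := by
    rw [mem_ev]
    refine ⟨S.mul_mem hτA.1 hτB.1, ?_⟩
    rw [map_mul, sign_of_mem_swapsIn hτA, sign_of_mem_swapsIn hτB]
    decide
  obtain ⟨a, ha, b, hb, hab⟩ := idp_mul hAB hq
  have haQ : a ∈ ev S := hAB.1 ha
  have hbQ : b ∈ ev S := hAB.2.1 hb
  obtain ⟨y, hy⟩ : ∃ y, y = a⁻¹ * τA := ⟨_, rfl⟩
  have hy' : y = b * τB⁻¹ := by
    have h1 : τA = a * b * τB⁻¹ := by
      rw [← hab]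
      group
    rw [hy, h1]
    group
  have hyS : y ∈ S := by
    rw [hy]
    exact S.mul_mem (S.inv_mem (mem_ev.1 haQ).1) hτA.1
  have hysign : Perm.sign y = -1 := by
    rw [hy, map_mul, map_inv, (mem_ev.1 haQ).2, sign_of_mem_swapsIn hτA]
    decide
  have hyU : ∀ e ∈ ev S, SupOn e U → y * e = e * y := by
    intro e he hsup
    have h1 : b * e = e * b := hBc b hb e he hsup
    have h2 : e * τB = τB * e := commute_of_supOn_fixOn hsup hfixB
    have h2' : τB⁻¹ * e = e * τB⁻¹ := by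
      rw [inv_mul_eq_iff_eq_mul, ← mul_assoc, ← h2, mul_assoc, mul_inv_cancel, mul_one]
    rw [hy', mul_assoc, h2', ← mul_assoc, h1, mul_assoc]
  have hyUc : ∀ e ∈ ev S, SupOn e Uᶜ → y * e = e * y := by
    intro e he hsup
    have h1 : a * e = e * a := hAc a ha e he hsup
    have h1' : a⁻¹ * e = e * a⁻¹ := by
      rw [inv_mul_eq_iff_eq_mul, ← mul_assoc, h1, mul_assoc, mul_inv_cancel, mul_one]
    have h2 : τA * e = e * τA :=
      commute_of_supOn_fixOn hτA_sup (fun x hx => hsup x (by simpa using hx))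
    rw [hy, mul_assoc, h2, ← mul_assoc, h1', mul_assoc]
  obtain ⟨u, hu, v, hv, husup, hvfix, hyuv⟩ := hSplit Ω S hS U hU y hyS
  have hvsup : SupOn v Uᶜ := supOn_compl_of_fixOn hvfix
  have huc : ∀ e ∈ ev S, SupOn e U → u * e = e * u := by
    intro e he hsup
    have h1 := hyU e he hsup
    have h2 : e * v = v * e := commute_of_supOn_fixOn hsup hvfix
    rw [hyuv] at h1
    have h3 : u * e * v = e * u * v := by
      rw [mul_assoc, h2, ← mul_assoc, h1, mul_assoc]
    exact mul_right_cancel h3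
  have hvc : ∀ e ∈ ev S, SupOn e Uᶜ → v * e = e * v := by
    intro e he hsup
    have h1 := hyUc e he hsup
    have h2 : u * e = e * u :=
      commute_of_supOn_fixOn husup (fun x hx => hsup x (by simpa using hx))
    rw [hyuv] at h1
    have h3 : u * (v * e) = u * (e * v) := by
      rw [← mul_assoc, h1, ← mul_assoc, ← h2, mul_assoc]
    exact mul_left_cancel h3
  have hsign : Perm.sign u * Perm.sign v = -1 := by
    rw [← map_mul, ← hyuv]
    exact hysign
  rcases Int.units_eq_one_or (Perm.sign u) with h1 | h1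
  · have hv1 : Perm.sign v = -1 := by
      rw [h1, one_mul] at hsign
      exact hsign
    have hτBmoves : ∃ a ∈ Uᶜ, τB a ≠ a := by
      obtain ⟨x, y', hxy, hτ⟩ := hτB.2
      refine ⟨x, ?_, ?_⟩
      · intro hxU
        have := hfixB x hxU
        rw [hτ, swap_apply_left] at this
        exact hxy this.symm
      · rw [hτ, swap_apply_left]
        exact hxy.symm
    have hcen : Cen S v := hF3 Ω S hS Uᶜ (inv_compl hU) ⟨τB, hτB, hτBmoves⟩ v hv hvsup hvc hv1
    have := (mem_ev.1 (hZ v hv hcen)).2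
    rw [hv1] at this
    exact absurd this (by decide)
  · have hcen : Cen S u := hF3 Ω S hS U hU ⟨τA, hτA, a₀, ha₀, hmA⟩ u hu husup huc h1
    have := (mem_ev.1 (hZ u hu hcen)).2
    rw [h1] at this
    exact absurd this (by decide)

end Cfsg.Agent.Lib.Helper96.SAMB
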