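import Cfsg.Agent.Lib.Helper96.SylAltStmt

/-!
# S2221: assembly of the pieces
-/

set_option autoImplicit false

namespace Cfsg.Agent.Lib.Helper96.SylAltAsm

open Equiv Cfsg.Agent.Lib.Lead.SylTwoSym Cfsg.Agent.Lib.Helper96.SylAltStmt

theorem assembly (hT : TRANSFER) (hSm : SMALL) (hC : CENTRE) (hOne : ONEORB) (hDS : DSET)
    (hDC : DCORE) (hMu : MULTI) (hOSN : OSN) (hOSTWO : OSTWO)
    (n : ℕ) (hn : 4 ≤ n) (P : Sylow 2 (alternatingGroup (Fin n))) :
    (∃ S₁ S₂ : Subgroup (alternatingGroup (Fin n)), S₁ ≠ ⊥ ∧ S₂ ≠ ⊥ ∧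
        Cfsg.IsInternalDirectProduct S₁ S₂ (P : Subgroup (alternatingGroup (Fin n)))) ↔
      (n = 4 ∨ n = 5 ∨ ((n % 4 = 2 ∨ n % 4 = 3) ∧ ∀ r : ℕ, 4 * (n / 4) ≠ 2 ^ r)) := by
  obtain ⟨S, hS, hiff⟩ := hT n P
  change Dec (P : Subgroup (alternatingGroup (Fin n))) ↔ _
  rw [hiff]
  have hcard : Fintype.card (Fin n) = n := Fintype.card_fin n
  constructor
  · intro hdec
    by_cases h45 : n = 4 ∨ n = 5
    · rcases h45 with h | h
      · exact Or.inl h
      · exact Or.inr (Or.inl h)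
    have h6 : 6 ≤ n := by omega
    right; right
    by_cases hpow : ∃ r, 4 * (n / 4) = 2 ^ r
    · obtain ⟨r, hr⟩ := hpow
      have hQ : IsPGroup 2 (ev S) := hS.1.to_le inf_le_left
      exact absurd hdec (hC (Perm (Fin n)) (ev S) hQ (hOne n r h6 hr S hS))
    · simp only [not_exists] at hpow
      refine ⟨?_, hpow⟩
      by_contra hmod
      have hmod' : n % 4 = 0 ∨ n % 4 = 1 := by omega
      have heven : Even (Fintype.card (Fin n) / 2) := by
        rw [hcard]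
        exact ⟨n / 4, by omega⟩
      have htwo : ∀ r : ℕ, Fintype.card (Fin n) / 2 ≠ 2 ^ r := by
        intro r hr
        rw [hcard] at hr
        apply hpow (r + 1)
        rw [pow_succ, ← hr]
        omega
      exact hMu (Fin n) S hS (by rw [hcard]; exact h6) (hOSN _ S hS heven)
        (hOSTWO _ S hS (by rw [hcard]; omega) htwo) hdec
  · rintro (h | h | ⟨hmod, hpow⟩)
    · exact hSm n (Or.inl h) S hS
    · exact hSm n (Or.inr h) S hS
    · have hodd : Odd (Fintype.card (Fin n) / 2) := by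
        rw [hcard]
        exact ⟨n / 4, by omega⟩
      have hnp : ∀ r : ℕ, Fintype.card (Fin n) / 2 - 1 ≠ 2 ^ r := by
        intro r hr
        rw [hcard] at hr
        apply hpow (r + 1)
        rw [pow_succ, ← hr]
        omega
      obtain ⟨τ₀, hτ₀, hc, U, hU, hfix, h1, h2⟩ :=
        hDS (Fin n) S hS (by rw [hcard]; exact hn) hodd hnp
      exact hDC (Fin n) S hS τ₀ hτ₀ hc U hU hfix h1 h2

/-- the statement from the 23 pieces, with their landed signatures -/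
theorem full (hTRANSFER : TRANSFER) (hCENTRE : CENTRE) (hCARD : CARD) (hSPLIT : SPLIT) (hPG : PG)
    (hZB : ZB) (hOSC : OSC') (hOSN : OSN') (hOSTWO : OSTWO') (hOSBIG : OSBIG') (hZC : ZC')
    (hONEORB : ONEORB') (hDSET : DSET') (hDCORE : DCORE') (hSMALL : SMALL') (hM1 : M1')
    (hEB : EB') (hSTEP1 : STEP1') (hM3 : M3') (hF3 : F3') (hMA1 : MA1') (hMA2 : MA2')
    (hMB : MB')
    (n : ℕ) (hn : 4 ≤ n) (P : Sylow 2 (alternatingGroup (Fin n))) :
    (∃ S₁ S₂ : Subgroup (alternatingGroup (Fin n)), S₁ ≠ ⊥ ∧ S₂ ≠ ⊥ ∧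
        Cfsg.IsInternalDirectProduct S₁ S₂ (P : Subgroup (alternatingGroup (Fin n)))) ↔
      (n = 4 ∨ n = 5 ∨ ((n % 4 = 2 ∨ n % 4 = 3) ∧ ∀ r : ℕ, 4 * (n / 4) ≠ 2 ^ r)) := by
  have osc : OSC := hOSC hCARD
  have osn : OSN := hOSN hCARD
  have ostwo : OSTWO := hOSTWO hCARD
  have osbig : OSBIG := hOSBIG hCARD
  have zc : ZC := hZC hCARD
  have oneorb : ONEORB := hONEORB hCARD osbig hZB zc
  have dset : DSET := hDSET hCARD osc
  have dcore : DCORE := hDCORE hSPLIT hZB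
  have small : SMALL := hSMALL hCARD osn hSPLIT hZB
  have m1 : M1 := hM1 hPG
  have eb : EB := hEB hSPLIT
  have step1 : STEP1 := hSTEP1 m1 eb hZB
  have m3 : M3 := hM3 hZB
  have f3 : F3 := hF3 hSPLIT
  have ma1 : MA1 := hMA1 step1 m3 hPG zc
  have ma2 : MA2 := hMA2 m1 m3
  have mb : MB := hMB f3 hSPLIT
  have multi : MULTI := by
    intro Ω _ _ S hS h6 hnc htwo hdec
    obtain ⟨A, B, hA, hB, hAB⟩ := hdec
    exact mb Ω S hS A B hAB (ma2 Ω S hS A B hAB (ma1 Ω S hS h6 hnc htwo A B hA hB hAB))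
  exact assembly hTRANSFER small hCENTRE oneorb dset dcore multi osn ostwo n hn P

end Cfsg.Agent.Lib.Helper96.SylAltAsm
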