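import Mathlib
import Cfsg.Prelude.Def_TwoFusion
import Cfsg.Agent.Lib.Lead.SylTwoSym

/-!
# S2221: direct decomposability of the Sylow 2-subgroups of `A_n` — piece statements

A Sylow 2-subgroup of `A_n` is `S ⊓ A_n` (`ev S`) for a maximal 2-subgroup `S` of `Perm (Fin n)`.
`swapsIn S` (the transpositions of `S`, `Lead.SylTwoSym`) is a matching missing at most one point.
-/

set_option autoImplicit false

namespace Cfsg.Agent.Lib.Helper96.SylAltStmt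

open Equiv Cfsg.Agent.Lib.Lead.SylTwoSym

/-- `H` is a nontrivial internal direct product -/
def Dec {G : Type*} [Group G] (H : Subgroup G) : Prop :=
  ∃ S₁ S₂ : Subgroup G, S₁ ≠ ⊥ ∧ S₂ ≠ ⊥ ∧ Cfsg.IsInternalDirectProduct S₁ S₂ H

section defs

variable {Ω : Type} [DecidableEq Ω] [Fintype Ω]

/-- the even part of `S` -/
def ev (S : Subgroup (Perm Ω)) : Subgroup (Perm Ω) := S ⊓ alternatingGroup Ω

/-- `U` is `S`-invariant -/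
def Inv (S : Subgroup (Perm Ω)) (U : Set Ω) : Prop := ∀ s ∈ S, ∀ a ∈ U, s a ∈ U

/-- `x` is supported in `U` -/
def SupOn (x : Perm Ω) (U : Set Ω) : Prop := ∀ a, a ∉ U → x a = a

/-- `x` fixes `U` pointwise -/
def FixOn (x : Perm Ω) (U : Set Ω) : Prop := ∀ a ∈ U, x a = a

/-- `x` commutes with every element of `S` -/
def Cen (S : Subgroup (Perm Ω)) (x : Perm Ω) : Prop := ∀ s ∈ S, x * s = s * x

/-- `a` is moved by a transposition of `S` -/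
def Cov (S : Subgroup (Perm Ω)) (a : Ω) : Prop := ∃ τ ∈ swapsIn S, τ a ≠ a

/-- `x` is the central involution of `S` attached to the `S`-orbit of `c`:
central in `S`, moving exactly the orbit of `c` -/
def CZ (S : Subgroup (Perm Ω)) (c : Ω) (x : Perm Ω) : Prop :=
  x ∈ S ∧ Cen S x ∧ ∀ a, x a ≠ a ↔ ∃ s ∈ S, s c = a

/-- no transposition of `S` is central in `S` (no orbit of size two) -/
def NoCen (S : Subgroup (Perm Ω)) : Prop := ∀ τ ∈ swapsIn S, ¬ Cen S τ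

/-- `S` has two transpositions that are not `S`-conjugate (two nontrivial orbits) -/
def TwoOrb (S : Subgroup (Perm Ω)) : Prop :=
  ∃ τ₁ ∈ swapsIn S, ∃ τ₂ ∈ swapsIn S, ∀ s ∈ S, s * τ₁ * s⁻¹ ≠ τ₂

end defs

/-! ## top-level pieces -/

/-- TRANSFER -/
def TRANSFER : Prop := ∀ (n : ℕ) (P : Sylow 2 (alternatingGroup (Fin n))),
  ∃ S : Subgroup (Perm (Fin n)), Max2 S ∧
    (Dec (P : Subgroup (alternatingGroup (Fin n))) ↔ Dec (ev S))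

/-- SMALL -/
def SMALL : Prop := ∀ (n : ℕ), (n = 4 ∨ n = 5) →
  ∀ S : Subgroup (Perm (Fin n)), Max2 S → Dec (ev S)

/-- CENTRE -/
def CENTRE : Prop := ∀ (G : Type) [Group G] [Finite G] (Q : Subgroup G), IsPGroup 2 Q →
  (∃ z : G, ∀ x ∈ Q, (∀ y ∈ Q, x * y = y * x) → x = 1 ∨ x = z) → ¬ Dec Q

/-- ONEORB -/
def ONEORB : Prop := ∀ (n r : ℕ), 6 ≤ n → 4 * (n / 4) = 2 ^ r →
  ∀ S : Subgroup (Perm (Fin n)), Max2 S →
    ∃ z : Perm (Fin n), ∀ x ∈ ev S, (∀ y ∈ ev S, x * y = y * x) → x = 1 ∨ x = z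

/-- DSET -/
def DSET : Prop := ∀ (Ω : Type) [DecidableEq Ω] [Fintype Ω] (S : Subgroup (Perm Ω)), Max2 S →
  4 ≤ Fintype.card Ω → Odd (Fintype.card Ω / 2) →
  (∀ r : ℕ, Fintype.card Ω / 2 - 1 ≠ 2 ^ r) →
  ∃ τ₀ ∈ swapsIn S, Cen S τ₀ ∧ ∃ U : Set Ω, Inv S U ∧ FixOn τ₀ U ∧
    (∃ τ₁ ∈ swapsIn S, ∃ a ∈ U, τ₁ a ≠ a) ∧ (∃ τ₂ ∈ swapsIn S, τ₂ ≠ τ₀ ∧ FixOn τ₂ U)

/-- DCORE -/
def DCORE : Prop := ∀ (Ω : Type) [DecidableEq Ω] [Fintype Ω] (S : Subgroup (Perm Ω)), Max2 S →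
  ∀ τ₀ ∈ swapsIn S, Cen S τ₀ → ∀ U : Set Ω, Inv S U → FixOn τ₀ U →
    (∃ τ₁ ∈ swapsIn S, ∃ a ∈ U, τ₁ a ≠ a) → (∃ τ₂ ∈ swapsIn S, τ₂ ≠ τ₀ ∧ FixOn τ₂ U) →
    Dec (ev S)

/-- MULTI -/
def MULTI : Prop := ∀ (Ω : Type) [DecidableEq Ω] [Fintype Ω] (S : Subgroup (Perm Ω)), Max2 S →
  6 ≤ Fintype.card Ω → NoCen S → TwoOrb S → ¬ Dec (ev S)

/-! ## shared lemmas -/

/-- CARD -/
def CARD : Prop := ∀ (Ω : Type) [DecidableEq Ω] [Fintype Ω] (S : Subgroup (Perm Ω)), Max2 S →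
  Nat.card ↥(swapsIn S) = Fintype.card Ω / 2 ∧ (Even (Fintype.card Ω) → ∀ a, Cov S a)

/-- OSC -/
def OSC : Prop := ∀ (Ω : Type) [DecidableEq Ω] [Fintype Ω] (S : Subgroup (Perm Ω)), Max2 S →
  Odd (Fintype.card Ω / 2) → ∃ τ ∈ swapsIn S, Cen S τ

/-- OSN -/
def OSN : Prop := ∀ (Ω : Type) [DecidableEq Ω] [Fintype Ω] (S : Subgroup (Perm Ω)), Max2 S →
  Even (Fintype.card Ω / 2) → NoCen S

/-- OSTWO -/
def OSTWO : Prop := ∀ (Ω : Type) [DecidableEq Ω] [Fintype Ω] (S : Subgroup (Perm Ω)), Max2 S →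
  2 ≤ Fintype.card Ω → (∀ r : ℕ, Fintype.card Ω / 2 ≠ 2 ^ r) → TwoOrb S

/-- OSBIG -/
def OSBIG : Prop := ∀ (n r : ℕ), 4 ≤ n → 4 * (n / 4) = 2 ^ r →
  ∀ S : Subgroup (Perm (Fin n)), Max2 S →
    ∃ U : Set (Fin n), Inv S U ∧ (∀ a ∈ U, ∀ b ∈ U, ∃ s ∈ S, s a = b) ∧ Uᶜ.ncard ≤ 3

/-- SPLIT -/
def SPLIT : Prop := ∀ (Ω : Type) [DecidableEq Ω] [Fintype Ω] (S : Subgroup (Perm Ω)), Max2 S →
  ∀ U : Set Ω, Inv S U → ∀ x ∈ S, ∃ u ∈ S, ∃ v ∈ S, SupOn u U ∧ FixOn v U ∧ x = u * v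

/-- PG -/
def PG : Prop := ∀ (G : Type) [Group G] [Finite G] (S M : Subgroup G), IsPGroup 2 S → M ≤ S →
  M ≠ ⊥ → (∀ s ∈ S, ∀ m ∈ M, s * m * s⁻¹ ∈ M) → ∃ x ∈ M, x ≠ 1 ∧ ∀ s ∈ S, x * s = s * x

/-- ZB -/
def ZB : Prop := ∀ (Ω : Type) [DecidableEq Ω] [Fintype Ω] (S : Subgroup (Perm Ω)), Max2 S →
  ∀ x : Perm Ω, (∀ τ ∈ swapsIn S, x * τ = τ * x) →
    ∀ a, x a = a ∨ ∃ τ ∈ swapsIn S, τ a ≠ a ∧ x a = τ a

/-- ZC -/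
def ZC : Prop := ∀ (Ω : Type) [DecidableEq Ω] [Fintype Ω] (S : Subgroup (Perm Ω)), Max2 S →
  6 ≤ Fintype.card Ω → ∀ x ∈ ev S, (∀ y ∈ ev S, x * y = y * x) → Cen S x

/-- M1 -/
def M1 : Prop := ∀ (Ω : Type) [DecidableEq Ω] [Fintype Ω] (S : Subgroup (Perm Ω)), Max2 S →
  ∀ N : Subgroup (Perm Ω), N ≤ ev S → (∀ q ∈ ev S, ∀ x ∈ N, q * x * q⁻¹ ∈ N) →
  ∀ U : Set Ω, Inv S U → (∃ τ ∈ swapsIn S, FixOn τ U) →
    (∃ x ∈ N, x ≠ 1 ∧ SupOn x U ∧ Cen S x) ∨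
    (∀ x ∈ N, ∀ e ∈ ev S, SupOn e U → x * e = e * x)

/-- EB -/
def EB : Prop := ∀ (Ω : Type) [DecidableEq Ω] [Fintype Ω] (S : Subgroup (Perm Ω)), Max2 S →
  ∀ (c : Ω) (τ τ' : Perm Ω), τ ∈ swapsIn S → τ c ≠ c → ¬ Cen S τ → τ' ∈ swapsIn S →
    FixOn τ' {a | ∃ s ∈ S, s c = a} →
    ∃ e ∈ ev S, SupOn e {a | ∃ s ∈ S, s c = a} ∧ ∃ q ∈ ev S, e * q ≠ q * e

/-- STEP1 -/
def STEP1 : Prop := ∀ (Ω : Type) [DecidableEq Ω] [Fintype Ω] (S : Subgroup (Perm Ω)), Max2 S →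
  NoCen S → TwoOrb S → ∀ A B : Subgroup (Perm Ω), Cfsg.IsInternalDirectProduct A B (ev S) →
  ∀ c, Cov S c → ∃ x, CZ S c x ∧ (x ∈ A ∨ x ∈ B)

/-- M3 -/
def M3 : Prop := ∀ (Ω : Type) [DecidableEq Ω] [Fintype Ω] (S : Subgroup (Perm Ω)), Max2 S →
  ∀ (N : Subgroup (Perm Ω)) (U : Set Ω), (∀ c ∈ U, Cov S c → ∃ y ∈ N, CZ S c y) →
  ∀ x ∈ S, Cen S x → SupOn x U → x ∈ N

/-- F3 -/
def F3 : Prop := ∀ (Ω : Type) [DecidableEq Ω] [Fintype Ω] (S : Subgroup (Perm Ω)), Max2 S →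
  ∀ U : Set Ω, Inv S U → (∃ τ ∈ swapsIn S, ∃ a ∈ U, τ a ≠ a) →
  ∀ u ∈ S, SupOn u U → (∀ e ∈ ev S, SupOn e U → u * e = e * u) → Perm.sign u = -1 → Cen S u

section sep

variable {Ω : Type} [DecidableEq Ω] [Fintype Ω]

/-- the orbits are split into an `A`-part `U` and a `B`-part `Uᶜ` (central involutions) -/
def SEP0 (S A B : Subgroup (Perm Ω)) : Prop :=
  ∃ U : Set Ω, Inv S U ∧ (∃ τ ∈ swapsIn S, ∃ a ∈ U, τ a ≠ a) ∧ (∃ τ ∈ swapsIn S, FixOn τ U) ∧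
    (∀ c ∈ U, Cov S c → ∃ y ∈ A, CZ S c y) ∧ (∀ c ∈ Uᶜ, Cov S c → ∃ y ∈ B, CZ S c y)

/-- `B` centralizes the even elements supported in `U`, `A` those supported in `Uᶜ`, and the
centre of `S` is even -/
def SEP (S A B : Subgroup (Perm Ω)) : Prop :=
  ∃ U : Set Ω, Inv S U ∧ (∃ τ ∈ swapsIn S, ∃ a ∈ U, τ a ≠ a) ∧ (∃ τ ∈ swapsIn S, FixOn τ U) ∧
    (∀ x ∈ B, ∀ e ∈ ev S, SupOn e U → x * e = e * x) ∧
    (∀ x ∈ A, ∀ e ∈ ev S, SupOn e Uᶜ → x * e = e * x) ∧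
    (∀ x ∈ S, Cen S x → x ∈ ev S)

end sep

/-- MA1 -/
def MA1 : Prop := ∀ (Ω : Type) [DecidableEq Ω] [Fintype Ω] (S : Subgroup (Perm Ω)), Max2 S →
  6 ≤ Fintype.card Ω → NoCen S → TwoOrb S → ∀ A B : Subgroup (Perm Ω), A ≠ ⊥ → B ≠ ⊥ →
  Cfsg.IsInternalDirectProduct A B (ev S) → SEP0 S A B

/-- MA2 -/
def MA2 : Prop := ∀ (Ω : Type) [DecidableEq Ω] [Fintype Ω] (S : Subgroup (Perm Ω)), Max2 S →
  ∀ A B : Subgroup (Perm Ω), Cfsg.IsInternalDirectProduct A B (ev S) → SEP0 S A B → SEP S A B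

/-- MB -/
def MB : Prop := ∀ (Ω : Type) [DecidableEq Ω] [Fintype Ω] (S : Subgroup (Perm Ω)), Max2 S →
  ∀ A B : Subgroup (Perm Ω), Cfsg.IsInternalDirectProduct A B (ev S) → SEP S A B → False

/-! ## the signatures of the pieces (`main : <Piece>'`; the hypotheses are other pieces) -/

def OSC' : Prop := CARD → OSC
def OSN' : Prop := CARD → OSN
def OSTWO' : Prop := CARD → OSTWO
def OSBIG' : Prop := CARD → OSBIG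
def ZC' : Prop := CARD → ZC
def ONEORB' : Prop := CARD → OSBIG → ZB → ZC → ONEORB
def DSET' : Prop := CARD → OSC → DSET
def DCORE' : Prop := SPLIT → ZB → DCORE
def SMALL' : Prop := CARD → OSN → SPLIT → ZB → SMALL
def M1' : Prop := PG → M1
def EB' : Prop := SPLIT → EB
def STEP1' : Prop := M1 → EB → ZB → STEP1
def M3' : Prop := ZB → M3
def F3' : Prop := SPLIT → F3
def MA1' : Prop := STEP1 → M3 → PG → ZC → MA1
def MA2' : Prop := M1 → M3 → MA2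
def MB' : Prop := F3 → SPLIT → MB

end Cfsg.Agent.Lib.Helper96.SylAltStmt
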